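import Groth.Agent.An.H867.LCPts
import Groth.Agent.An.H881.Contr2
import Groth.Agent.S4191
import Groth.Prelude.Def_FEt
import Mathlib.Topology.Homotopy.Lifting
import Mathlib.AlgebraicGeometry.Morphisms.FiniteType

/-!
# Glue for S4221

Transitivity of the monodromy for connected finite étale covers, and the reduction of the second
half of the statement to Riemann existence and the existence of covering spaces.
-/

set_option autoImplicit false

open CategoryTheory AlgebraicGeometry Topology TopologicalSpace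

namespace Groth.Agent.An.H893.Glue

/-- The space of complex points is strongly locally contractible. -/
theorem stronglyLocallyContractibleSpace (X : Scheme.{0}) [X.Over An.SC]
    [LocallyOfFiniteType (X ↘ An.SC)] : StronglyLocallyContractibleSpace (An.Pts X) :=
  Groth.Agent.An.H867.LCPts.stronglyLocallyContractibleSpace_of_contr
    Groth.Agent.An.H881.Contr2.contr

theorem locallyPathConnectedSpace (X : Scheme.{0}) [X.Over An.SC]
    [LocallyOfFiniteType (X ↘ An.SC)] : LocallyPathConnectedSpace (An.Pts X) :=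
  have := stronglyLocallyContractibleSpace X
  inferInstance

/-- The space of complex points of a connected scheme is path connected. -/
theorem pathConnectedSpace (X : Scheme.{0}) [X.Over An.SC]
    [LocallyOfFiniteType (X ↘ An.SC)] [h : ConnectedSpace ↥X] : PathConnectedSpace (An.Pts X) :=
  have := locallyPathConnectedSpace X
  have := (Groth.Agent.S4191.result X).1 h
  pathConnectedSpace_iff_connectedSpace.2 inferInstance

/-- Lifting a path joining two points of the fibre. -/
theorem exists_monodromy {E B : Type*} [TopologicalSpace E] [TopologicalSpace B] {p : E → B}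
    (hp : IsCoveringMap p) [PathConnectedSpace E] (x : B) (e e' : p ⁻¹' {x}) :
    ∃ γ : FundamentalGroup B x, hp.monodromyPerm x γ e = e' := by
  obtain ⟨e, he⟩ := e
  obtain ⟨e', he'⟩ := e'
  have hex : p e = x := he
  have hex' : p e' = x := he'
  let Γ : Path e e' := PathConnectedSpace.somePath e e'
  let γ0 : Path.Homotopic.Quotient (p e) (p e') :=
    (Path.Homotopic.Quotient.mk Γ).map ⟨p, hp.continuous⟩
  refine ⟨γ0.cast hex.symm hex'.symm, ?_⟩
  exact hp.monodromy_eq_of_map_eq (γ := γ0.cast hex.symm hex'.symm) (ex := ⟨e, he⟩)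
    (ey := ⟨e', he'⟩) (Path.Homotopic.Quotient.mk Γ) (by
      rw [Path.Homotopic.Quotient.cast_cast]
      rfl)

/-- Naturality of the monodromy. -/
theorem monodromyPerm_map {E E' B : Type*} [TopologicalSpace E] [TopologicalSpace E']
    [TopologicalSpace B] {p : E → B} {p' : E' → B} (hp : IsCoveringMap p) (hp' : IsCoveringMap p')
    (f : C(E, E')) (hf : ∀ a, p' (f a) = p a) (x : B) (γ : FundamentalGroup B x)
    (e : p ⁻¹' {x}) (e' : p' ⁻¹' {x}) (he : (e' : E') = f e) :
    ((hp'.monodromyPerm x γ e' : p' ⁻¹' {x}) : E') = f (hp.monodromyPerm x γ e : p ⁻¹' {x}) := by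
  obtain ⟨γ⟩ := γ
  change hp'.liftPath γ e' _ 1 = f (hp.liftPath γ e _ 1)
  have h0 : γ 0 = p (e : E) := γ.source.trans e.2.symm
  have h1 : (f.comp (hp.liftPath γ e h0)) = hp'.liftPath γ e' (γ.source.trans e'.2.symm) := by
    rw [hp'.eq_liftPath_iff']
    constructor
    · funext t
      change p' (f (hp.liftPath γ e h0 t)) = γ t
      rw [hf]
      exact congrFun (hp.liftPath_lifts γ e h0) t
    · change f (hp.liftPath γ e h0 0) = e'
      rw [hp.liftPath_zero, he]
  rw [← h1]
  rfl

/-- In a strongly locally contractible space, small paths with the same end points are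
homotopic. -/
theorem exists_nhds_homotopic (X : Type*) [TopologicalSpace X] [StronglyLocallyContractibleSpace X]
    (x : X) : ∃ U ∈ 𝓝 x, ∀ (y z : X) (γ γ' : Path y z), Set.range γ ⊆ U → Set.range γ' ⊆ U →
      γ.Homotopic γ' := by
  obtain ⟨U, ⟨hU, hUc⟩, -⟩ := (contractible_basis x).mem_iff.1 (Filter.univ_mem)
  refine ⟨U, hU, fun y z γ γ' hγ hγ' => ?_⟩
  have hUc' : ContractibleSpace U := hUc
  have hy : y ∈ U := by
    have := hγ (Set.mem_range_self 0)
    rwa [γ.source] at this
  have hz : z ∈ U := by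
    have := hγ (Set.mem_range_self 1)
    rwa [γ.target] at this
  let δ : Path (⟨y, hy⟩ : U) ⟨z, hz⟩ :=
    { toFun := fun t => ⟨γ t, hγ (Set.mem_range_self t)⟩
      continuous_toFun := by fun_prop
      source' := Subtype.ext γ.source
      target' := Subtype.ext γ.target }
  let δ' : Path (⟨y, hy⟩ : U) ⟨z, hz⟩ :=
    { toFun := fun t => ⟨γ' t, hγ' (Set.mem_range_self t)⟩
      continuous_toFun := by fun_prop
      source' := Subtype.ext γ'.source
      target' := Subtype.ext γ'.target }
  have h1 : δ.Homotopic δ' := SimplyConnectedSpace.paths_homotopic δ δ'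
  have h2 : (δ.map continuous_subtype_val).Homotopic (δ'.map continuous_subtype_val) :=
    h1.map ⟨Subtype.val, continuous_subtype_val⟩
  exact h2

/-- The statement of S4207. -/
def RET : Prop := ∀ (X : Scheme.{0}) [X.Over An.SC] [LocallyOfFiniteType (X ↘ An.SC)]
    (E : Type) [TopologicalSpace E] (p : E → An.Pts X) (_ : IsCoveringMap p)
    (_ : ∀ x : An.Pts X, (p ⁻¹' {x}).Finite),
    ∃ (Y : FEt.Cat X) (e : An.Pts Y.left ≃ₜ E), ∀ a : An.Pts Y.left,
      p (e a) = An.Pts.map (Y.left ↘ X) a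

/-- Existence of coverings with a prescribed stabiliser, for strongly locally contractible spaces. -/
def COV : Prop := ∀ (X : Type) [TopologicalSpace X] [PathConnectedSpace X]
    [StronglyLocallyContractibleSpace X] (x : X) (H : Subgroup (FundamentalGroup X x)),
    ∃ (E : Type) (_ : TopologicalSpace E) (p : E → X) (hp : IsCoveringMap p) (e : p ⁻¹' {x}),
      (∀ γ, γ ∈ H ↔ hp.monodromyPerm x γ e = e) ∧ (H.FiniteIndex → ∀ y, (p ⁻¹' {y}).Finite)

theorem partA (X : Scheme.{0}) [X.Over An.SC]
    [LocallyOfFiniteType (X ↘ An.SC)] (x : An.Pts X)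
    (hc : ∀ Y : FEt.Cat X, IsCoveringMap (An.Pts.map (Y.left ↘ X)))
    (Y : FEt.Cat X) (hY : ConnectedSpace ↥Y.left) (e e' : An.Pts.map (Y.left ↘ X) ⁻¹' {x}) :
    ∃ γ : FundamentalGroup (An.Pts X) x, (hc Y).monodromyPerm x γ e = e' := by
  have h1 : IsFinite (Y.left ↘ X) := Y.prop.1
  have h2 : LocallyOfFiniteType (Y.left ↘ An.SC) := by
    change LocallyOfFiniteType ((Y.left ↘ X) ≫ X ↘ An.SC)
    infer_instance
  have h3 : PathConnectedSpace (An.Pts Y.left) := pathConnectedSpace Y.left
  exact exists_monodromy (hc Y) x e e'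

theorem partB (hRET : RET) (hCOV : COV) (X : Scheme.{0}) [X.Over An.SC]
    [LocallyOfFiniteType (X ↘ An.SC)] [ConnectedSpace ↥X] (x : An.Pts X)
    (hc : ∀ Y : FEt.Cat X, IsCoveringMap (An.Pts.map (Y.left ↘ X)))
    (H : Subgroup (FundamentalGroup (An.Pts X) x)) (hH : H.FiniteIndex) :
    ∃ (Y : FEt.Cat X) (e : An.Pts.map (Y.left ↘ X) ⁻¹' {x}),
      ∀ γ : FundamentalGroup (An.Pts X) x, γ ∈ H ↔ (hc Y).monodromyPerm x γ e = e := by
  have := stronglyLocallyContractibleSpace X
  have := pathConnectedSpace X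
  obtain ⟨E, _, p, hp, e, he, hfin⟩ := hCOV (An.Pts X) x H
  obtain ⟨Y, φ, hφ⟩ := hRET X E p hp (hfin hH)
  have he0 : φ.symm e ∈ An.Pts.map (Y.left ↘ X) ⁻¹' {x} := by
    rw [Set.mem_preimage, ← hφ, φ.apply_symm_apply]
    exact e.2
  refine ⟨Y, ⟨φ.symm e, he0⟩, fun γ => ?_⟩
  rw [he γ]
  have h1 := monodromyPerm_map (hc Y) hp ⟨φ, φ.continuous⟩ hφ x γ ⟨φ.symm e, he0⟩ e
    (φ.apply_symm_apply e).symm
  constructor
  · intro h
    apply Subtype.ext
    apply φ.injective
    change φ ((hc Y).monodromyPerm x γ ⟨φ.symm e, he0⟩ : An.Pts.map (Y.left ↘ X) ⁻¹' {x}) =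
      φ (φ.symm e)
    rw [φ.apply_symm_apply]
    rw [h] at h1
    exact h1.symm
  · intro h
    apply Subtype.ext
    rw [h1, h]
    exact φ.apply_symm_apply e

/-- **S4221** from Riemann existence and the existence of coverings. -/
theorem of_ret (hRET : RET) (hCOV : COV) (X : Scheme.{0}) [X.Over An.SC]
    [LocallyOfFiniteType (X ↘ An.SC)] [ConnectedSpace ↥X] (x : An.Pts X)
    (hc : ∀ Y : FEt.Cat X, IsCoveringMap (An.Pts.map (Y.left ↘ X))) :
    (∀ Y : FEt.Cat X, ConnectedSpace ↥Y.left →
      ∀ e e' : An.Pts.map (Y.left ↘ X) ⁻¹' {x},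
        ∃ γ : FundamentalGroup (An.Pts X) x, (hc Y).monodromyPerm x γ e = e') ∧
    (∀ H : Subgroup (FundamentalGroup (An.Pts X) x), H.FiniteIndex →
      ∃ (Y : FEt.Cat X) (e : An.Pts.map (Y.left ↘ X) ⁻¹' {x}),
        ∀ γ : FundamentalGroup (An.Pts X) x, γ ∈ H ↔ (hc Y).monodromyPerm x γ e = e) :=
  ⟨partA X x hc, partB hRET hCOV X x hc⟩

end Groth.Agent.An.H893.Glue
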